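import Cfsg.Agent.Fus.SimpleGrp

/-!
# A simplicity criterion for `F_S(G)` through families of subgroups of normalisers
-/

set_option autoImplicit false

namespace Cfsg.Lib.DC

open Subgroup Cfsg Cfsg.FusionSystem Cfsg.Lib.Fus Cfsg.Lib.Fus.Grp

/-- A family `P ↦ N P ≤ N_H(P)` with the closure properties of the automizers in a normal
subsystem of index prime to `p`. -/
structure Fam (p : ℕ) {X : Type*} [Group X] (H : Subgroup X) (N : Subgroup X → Subgroup X) :
    Prop where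
  le : ∀ P, N P ≤ normalizer (P : Set X)
  leH : ∀ P, N P ≤ H
  pel : ∀ P, P ≤ H → IsPGroup p P → ∀ g ∈ H, g ∈ normalizer (P : Set X) → ∀ k : ℕ,
    g ^ p ^ k = 1 → g ∈ N P
  res : ∀ P Q, P ≤ H → IsPGroup p P → Q ≤ P → ∀ g ∈ N P, g ∈ normalizer (Q : Set X) → g ∈ N Q
  ext : ∀ P Q, P ≤ H → IsPGroup p P → Q ≤ P → H ⊓ centralizer (Q : Set X) ≤ Q →
    ∀ g ∈ N Q, g ∈ normalizer (P : Set X) → g ∈ N P

variable {G : Type*} [Group G] {p : ℕ} [Fact p.Prime] [Finite G]

section

variable (S : Sylow p G) {E : FusionSystem (S : Subgroup G)}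

theorem mor_ext_of_centric (hE : E.IsSaturated p)
    (hEF : E.IsSubsystemOf (groupFusionSystem (S : Subgroup G))) {g : G} {P : Subgroup G}
    (hPS : P ≤ (S : Subgroup G)) (hg : g ∈ normalizer (P : Set G)) :
    ∀ R, R ≤ P → centralizer (R : Set G) ≤ R → g ∈ normalizer (R : Set G) →
      Mor E R (fun x => g * x * g⁻¹) → Mor E P (fun x => g * x * g⁻¹) := by
  have hPp : IsPGroup p P := S.isPGroup'.to_le hPS
  refine downward_induction P (C := fun R => centralizer (R : Set G) ≤ R →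
      g ∈ normalizer (R : Set G) → Mor E R (fun x => g * x * g⁻¹) →
      Mor E P (fun x => g * x * g⁻¹)) ?_
  intro R hRP ih hc hgR hm
  rcases hRP.eq_or_lt with h | hlt
  · rw [h] at hm; exact hm
  have hRS := hRP.trans hPS
  have hlt' := lt_normalizerIn hPp hlt
  set Q := normalizerIn P R with hQ
  have hgQ : g ∈ normalizer (Q : Set G) := mem_normalizer_inf hg (le_normalizer hgR)
  refine ih Q normalizerIn_le (card_lt_card_of_lt hlt')
    ((centralizer_le hlt'.le).trans (hc.trans hlt'.le)) hgQ ?_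
  have hcE : E.IsCentric R := by
    refine isCentric_iff.2 ⟨hRS, fun f hf => ?_⟩
    obtain ⟨-, -, h, eh⟩ := mor_group.1 (hf.of_sub hEF)
    intro x hx
    have h1 : h⁻¹ * x * h ∈ R := hc (mem_centralizer_iff.2 fun y hy => by
      have := (mem_centralizerIn.1 hx).2 _ (mem_img_of_mem f hy)
      rw [eh y hy] at this
      calc y * (h⁻¹ * x * h) = h⁻¹ * (h * y * h⁻¹ * x) * h := by group
        _ = h⁻¹ * (x * (h * y * h⁻¹)) * h := by rw [this]
        _ = _ := by group)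
    have h2 := mem_img_of_mem f h1
    rwa [eh _ h1, show h * (h⁻¹ * x * h) * h⁻¹ = x by group] at h2
  obtain ⟨k, hk, e⟩ := (isReceptive_iff.1 (sat_receptive_of_centric S.isPGroup' hE hcE)).2 R _ hm
    (img_conj_eq_self_iff.2 hgR)
  have hle : Q ≤ extd S R (fun x => g * x * g⁻¹) := fun x hx =>
    mem_extd.2 ⟨hPS hx.1, hx.2, g * x * g⁻¹, hPS (Grp.conj_mem_of_mem_normalizer hg hx.1),
      fun y _ => by group⟩
  have hk' := hk.restrict hle
  obtain ⟨-, -, h, eh⟩ := mor_group.1 (hk'.of_sub hEF)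
  have hz : g⁻¹ * h ∈ R := by
    refine hc (mem_centralizer_iff.2 fun y hy => ?_)
    have h1 := e y hy
    rw [eh y (hlt'.le hy)] at h1
    calc y * (g⁻¹ * h) = g⁻¹ * (g * y * g⁻¹) * h := by group
      _ = g⁻¹ * (h * y * h⁻¹) * h := by rw [h1]
      _ = _ := by group
  have hzQ : g⁻¹ * h ∈ Q := hlt'.le hz
  have h4 : ∀ x ∈ Q, (g⁻¹ * h)⁻¹ * x * (g⁻¹ * h)⁻¹⁻¹ ∈ Q := fun x hx =>
    Q.mul_mem (Q.mul_mem (Q.inv_mem hzQ) hx) (Q.inv_mem (Q.inv_mem hzQ))
  have h3 : Mor E Q (k ∘ fun x => (g⁻¹ * h)⁻¹ * x * (g⁻¹ * h)⁻¹⁻¹) :=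
    (Mor.conj E (normalizerIn_le.trans hPS) (Subgroup.inv_mem _ (hRS hz))).comp hk' h4
  refine h3.congr fun x hx => ?_
  show k _ = g * x * g⁻¹
  rw [eh _ (h4 x hx)]
  group

/-- Conjugate of a subgroup. -/
abbrev cjs (h : G) (P : Subgroup G) : Subgroup G := P.map (MulAut.conj h).toMonoidHom

omit [Finite G] in
theorem mem_cjs {h x : G} {P : Subgroup G} : x ∈ cjs h P ↔ h⁻¹ * x * h ∈ P := by
  constructor
  · rintro ⟨y, hy, rfl⟩
    simpa [mul_assoc] using hy
  · intro hx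
    exact ⟨_, hx, by simp [mul_assoc]⟩

omit [Finite G] in
theorem conj_mem_normalizer_cjs {h g : G} {P : Subgroup G} (hg : g ∈ normalizer (P : Set G)) :
    h * g * h⁻¹ ∈ normalizer (cjs h P : Set G) :=
  le_normalizer_map (MulAut.conj h).toMonoidHom (mem_map_of_mem _ hg)

omit [Finite G] in
theorem mor_transport (hE : E.IsInvariantIn (groupFusionSystem (S : Subgroup G)))
    {P : Subgroup G} {g h k : G} (hg : g ∈ normalizer (P : Set G))
    (hh : cjs h P ≤ (S : Subgroup G)) (hk : cjs k P ≤ (S : Subgroup G))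
    (hm : Mor E (cjs k P) fun x => (k * g * k⁻¹) * x * (k * g * k⁻¹)⁻¹) :
    Mor E (cjs h P) fun x => (h * g * h⁻¹) * x * (h * g * h⁻¹)⁻¹ := by
  have h1 : Mor (groupFusionSystem (S : Subgroup G)) (cjs k P)
      (fun y => (h * k⁻¹) * y * (h * k⁻¹)⁻¹) :=
    mor_group.2 ⟨hk, fun y hy => hh (mem_cjs.2 (by
      have := mem_cjs.1 hy
      simpa [mul_assoc] using this)), h * k⁻¹, fun _ _ => rfl⟩
  have h2 := invariant_strong hE hm h1 hk le_rfl
    (fun y hy => Grp.conj_mem_of_mem_normalizer (conj_mem_normalizer_cjs hg) hy)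
    (k := fun x => (h * g * h⁻¹) * x * (h * g * h⁻¹)⁻¹) (fun y _ => by group)
  have h3 : img (cjs k P) (fun y => (h * k⁻¹) * y * (h * k⁻¹)⁻¹) = cjs h P := by
    rw [img_conj]
    ext x
    rw [← show cjs (h * k⁻¹) (cjs k P) = map (MulAut.conj (h * k⁻¹)).toMonoidHom (cjs k P) from rfl,
      mem_cjs, mem_cjs, mem_cjs]
    simp [mul_assoc]
  rwa [h3] at h2

/-- The elements of `N_G(P)` acting on `P` by a morphism of `E` (after conjugation into `S`). -/
def goodSub (E : FusionSystem (S : Subgroup G)) (P : Subgroup G) : Subgroup G where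
  carrier := {g | g ∈ normalizer (P : Set G) ∧ ∀ h : G, cjs h P ≤ (S : Subgroup G) →
    Mor E (cjs h P) fun x => (h * g * h⁻¹) * x * (h * g * h⁻¹)⁻¹}
  one_mem' := ⟨one_mem _, fun h hh => Mor.of_eqOn_id E hh fun x _ => by simp⟩
  mul_mem' := by
    rintro a b ⟨ha, ha'⟩ ⟨hb, hb'⟩
    refine ⟨mul_mem ha hb, fun h hh => ?_⟩
    exact ((hb' h hh).comp (ha' h hh) fun x hx =>
      Grp.conj_mem_of_mem_normalizer (conj_mem_normalizer_cjs hb) hx).congr fun x _ => by
        simp [mul_assoc]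
  inv_mem' := by
    rintro a ⟨ha, ha'⟩
    refine ⟨inv_mem ha, fun h hh => ?_⟩
    have := (ha' h hh).of_leftInv (g := fun x => (h * a⁻¹ * h⁻¹) * x * (h * a⁻¹ * h⁻¹)⁻¹)
      fun x _ => by group
    rwa [img_conj_eq_self_iff.2 (conj_mem_normalizer_cjs ha)] at this

theorem exists_cjs_le {P : Subgroup G} (hP : IsPGroup p P) : ∃ k : G, cjs k P ≤ (S : Subgroup G) := by
  obtain ⟨k, -, hk⟩ := (isSylowIn_top S).exists_conj_le hP le_top
  exact ⟨k, by rintro _ ⟨x, hx, rfl⟩; exact hk x hx⟩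

theorem fam_goodSub (hE : E.IsWeaklyNormalIn (groupFusionSystem (S : Subgroup G)) p) :
    Fam p ⊤ (goodSub S E) where
  le _ _ h := h.1
  leH _ := le_top
  pel P _ hP g _ hg k hk := by
    refine ⟨hg, fun h hh => ?_⟩
    have h1 : IsPGroup p (zpowers g) := by
      obtain ⟨j, -, hj⟩ := (Nat.dvd_prime_pow (Fact.out : p.Prime)).1 (orderOf_dvd_of_pow_eq_one hk)
      exact IsPGroup.of_card (by rw [Nat.card_zpowers, hj])
    obtain ⟨m, hm⟩ := exists_cjs_le S (h1.to_sup_of_normal_right' hP (zpowers_le.2 hg))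
    have h2 : cjs m P ≤ (S : Subgroup G) := (map_mono le_sup_right).trans hm
    exact mor_transport S hE.2.2 hg hh h2 (Mor.conj E h2
      (hm (mem_map_of_mem _ (mem_sup_left (mem_zpowers g)))))
  res P Q _ hP hQP g hg hgQ := by
    refine ⟨hgQ, fun h hh => ?_⟩
    obtain ⟨m, hm⟩ := exists_cjs_le S hP
    exact mor_transport S hE.2.2 hgQ hh ((map_mono hQP).trans hm)
      ((hg.2 m hm).restrict (map_mono hQP))
  ext P Q _ _ hQP hc g hg hgP := by
    refine ⟨hgP, fun h hh => ?_⟩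
    refine mor_ext_of_centric S hE.1 hE.2.2.1 hh (conj_mem_normalizer_cjs hgP) (cjs h Q)
      (map_mono hQP) (fun x hx => mem_cjs.2 (hc ⟨trivial, mem_centralizer_iff.2 fun y hy => ?_⟩))
      (conj_mem_normalizer_cjs hg.1) (hg.2 h ((map_mono hQP).trans hh))
    have := mem_centralizer_iff.1 hx (h * y * h⁻¹) (mem_cjs.2 (by simpa [mul_assoc] using hy))
    calc y * (h⁻¹ * x * h) = h⁻¹ * (h * y * h⁻¹ * x) * h := by group
      _ = h⁻¹ * (x * (h * y * h⁻¹)) * h := by rw [this]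
      _ = _ := by group

end

omit [Fact p.Prime] [Finite G] in
theorem Fam.map {X : Type*} [Group X] {N : Subgroup G → Subgroup G} (hN : Fam p ⊤ N)
    (f : G →* X) (hf : Function.Injective f) :
    Fam p f.range fun P => (N (P.comap f)).map f ⊓ normalizer (P : Set X) where
  le _ := inf_le_right
  leH P := inf_le_left.trans (map_le_range _ _)
  pel P _ hP := by
    rintro _ ⟨g, rfl⟩ hg k hk
    refine ⟨mem_map_of_mem f (hN.pel _ le_top (hP.comap_of_injective f hf) g trivial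
      (le_normalizer_comap f hg) k (hf (by rw [map_pow, hk, map_one]))), hg⟩
  res P Q _ hP hQP := by
    rintro _ ⟨⟨g, hg, rfl⟩, -⟩ hgQ
    exact ⟨mem_map_of_mem f (hN.res _ _ le_top (hP.comap_of_injective f hf) (comap_mono hQP) g hg
      (le_normalizer_comap f hgQ)), hgQ⟩
  ext P Q hPH hP hQP hc := by
    rintro _ ⟨⟨g, hg, rfl⟩, -⟩ hgP
    refine ⟨mem_map_of_mem f (hN.ext _ _ le_top (hP.comap_of_injective f hf) (comap_mono hQP)
      (fun x hx => hc ⟨⟨x, rfl⟩, mem_centralizer_iff.2 fun y hy => ?_⟩) g hg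
      (le_normalizer_comap f hgP)), hgP⟩
    obtain ⟨z, rfl⟩ := hPH (hQP hy)
    rw [← map_mul, ← map_mul, mem_centralizer_iff.1 hx.2 z hy]

/-- Simplicity of `F_S(G)` from data in a group `X` containing `G`. -/
theorem isSimple_of_fam {X : Type*} [Group X] (f : G →* X) (hf : Function.Injective f)
    {T : Subgroup X} (hT : IsSylowIn p T f.range) (hne : T ≠ ⊥)
    (closed : ∀ U : Subgroup X, U ≤ T → U ≠ ⊥ →
      (∀ x ∈ U, ∀ g ∈ f.range, g * x * g⁻¹ ∈ T → g * x * g⁻¹ ∈ U) → T ≤ U)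
    (aut : ∀ N, Fam p f.range N → ∀ g ∈ f.range, g ∈ normalizer (T : Set X) → g ∈ N T)
    (S : Sylow p G) : (groupFusionSystem (S : Subgroup G)).IsSimple p := by
  have h0 : IsSylowIn p (T.comap f) ⊤ := by
    refine ⟨le_top, hT.isPGroup.comap_of_injective f hf, fun Q hp hQ _ => ?_⟩
    have := hT.maximal (Q.map f) (hp.map f) ((map_comap_eq_self hT.le).symm.le.trans (map_mono hQ))
      (map_le_range _ _)
    rw [← this, comap_map_eq_self_of_injective hf]
  obtain ⟨h, -, hh⟩ := (isSylowIn_top S).exists_map_conj_eq h0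
  have hS : ∀ x, x ∈ (S : Subgroup G) ↔ f (h⁻¹ * x * h) ∈ T := fun x => by
    rw [← hh]; exact mem_cjs
  refine isSimple_of_aut_le (groupFusionSystem_isSaturated S) ?_ (fun U hU => ?_) fun E hE => ?_
  · intro hb
    refine hne (eq_bot_iff.2 fun x hx => ?_)
    obtain ⟨y, rfl⟩ := hT.le hx
    have : h * y * h⁻¹ ∈ (S : Subgroup G) := (hS _).2 (by simpa [mul_assoc] using hx)
    rw [hb, mem_bot, conj_eq_one_iff] at this
    simp [this]
  · obtain ⟨h1, h2⟩ := stronglyClosed_group_iff.1 hU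
    by_cases hb : U = ⊥
    · exact Or.inl hb
    refine Or.inr (le_antisymm h1 fun x hx => ?_)
    have h3 := closed ((cjs h⁻¹ U).map f) ?_ ?_ ?_ ((hS x).1 hx)
    · obtain ⟨y, hy, e⟩ := h3
      have := mem_cjs.1 hy
      rw [hf e] at this
      simpa [mul_assoc] using this
    · rintro _ ⟨y, hy, rfl⟩
      have := (hS _).1 (h1 (mem_cjs.1 hy))
      simpa [mul_assoc] using this
    · intro hb'
      refine hb (eq_bot_iff.2 fun y hy => ?_)
      have : f (h⁻¹ * y * h) ∈ (cjs h⁻¹ U).map f :=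
        mem_map_of_mem f (mem_cjs.2 (by simpa [mul_assoc] using hy))
      rw [hb', mem_bot, map_eq_one_iff f hf] at this
      rw [mem_bot]
      calc y = h * (h⁻¹ * y * h) * h⁻¹ := by group
        _ = 1 := by rw [this]; group
    · rintro _ ⟨y, hy, rfl⟩ _ ⟨g, rfl⟩ hg
      rw [← map_inv, ← map_mul, ← map_mul] at hg ⊢
      refine mem_map_of_mem f (mem_cjs.2 ?_)
      have := h2 _ (mem_cjs.1 hy) (h * g * h⁻¹) ((hS _).2 (by simpa [mul_assoc] using hg))
      simpa [mul_assoc] using this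
  · rw [autGroup_group_eq le_rfl]
    intro α hα
    obtain ⟨g, -, e⟩ := mem_autInducedBy_iff.1 hα
    have hg := mem_normalizer_of_aut α e
    have h1 : f (h⁻¹ * g * h) ∈ normalizer (T : Set X) := by
      have h2 : h⁻¹ * g * h⁻¹⁻¹ ∈ normalizer (cjs h⁻¹ (S : Subgroup G) : Set G) :=
        conj_mem_normalizer_cjs hg
      have h3 : (cjs h⁻¹ (S : Subgroup G)).map f = T := by
        rw [← map_comap_eq_self hT.le]
        congr 1
        ext x
        rw [mem_cjs, hS, mem_comap]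
        simp [mul_assoc]
      rw [← h3]
      exact le_normalizer_map f (mem_map_of_mem f (by simpa using h2))
    obtain ⟨⟨y, hy, e'⟩, -⟩ := aut _ ((fam_goodSub S hE).map f hf) _ ⟨_, rfl⟩ h1
    rw [hf e'] at hy
    have h4 := hy.2 h hh.le
    rw [show cjs h (T.comap f) = (S : Subgroup G) from hh] at h4
    exact Grp.mem_autGroup_of_mor (h4.congr (g := fun x => g * x * g⁻¹) fun x _ => by group) e

end Cfsg.Lib.DC
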