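import Cfsg.Agent.DC.AnClosed
import Cfsg.Agent.DC.FusFam

/-!
# The `p`-fusion system of a large alternating group has no subsystem of index prime to `p`
-/

set_option autoImplicit false
set_option linter.unusedSectionVars false

namespace Cfsg.Lib.DC.Wr

open Equiv Subgroup

section Star

variable {I J : Type*} {p : ℕ} [hp : Fact p.Prime] [Fintype I] [Fintype J] [DecidableEq I]
  [DecidableEq J]

/-- The subgroup generated by the elements of order `p` normalising the base group. -/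
def Pst (I : Type*) (p : ℕ) (J : Type*) : Subgroup (Perm (Om I p J)) :=
  closure {x | x ∈ normalizer (A I p J : Set (Perm (Om I p J))) ∧ x ^ p = 1}

theorem Pst_conj {g x : Perm (Om I p J)} (hg : g ∈ normalizer (A I p J : Set (Perm (Om I p J))))
    (hx : x ∈ Pst I p J) : g * x * g⁻¹ ∈ Pst I p J :=
  (closure_le (K := (Pst I p J).comap (MulAut.conj g).toMonoidHom)).2 (fun y hy =>
    subset_closure ⟨mul_mem (mul_mem hg hy.1) (inv_mem hg), by
      show (g * y * g⁻¹) ^ p = 1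
      rw [conj_pow, hy.2]; simp⟩) hx

theorem tr_mem_Pst (b : I → ZMod p) : tr J b ∈ Pst I p J := subset_closure ⟨tr_mem_norm b, tr_pow_p b⟩

theorem tp_mem_Pst_of_ne {τ : Perm I} (hτ : τ ^ p = 1) {a : I} (h1 : τ a ≠ a) (h2 : τ (τ a) ≠ a)
    {σ : Perm I} (hσ : Perm.sign σ = 1) : tp p J σ ∈ Pst I p J := by
  let H := (Pst I p J).comap (tpH I p J)
  have hH : H.Normal := ⟨fun x hx g => by
    show tp p J (g * x * g⁻¹) ∈ Pst I p J
    rw [tp_mul, tp_mul, tp_inv]
    exact Pst_conj (tp_mem_norm g) hx⟩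
  have h3 : τ ∈ H := subset_closure ⟨tp_mem_norm τ, by
    show tp p J τ ^ p = 1
    rw [← tp_pow, hτ, tp_one]⟩
  have h4 : swap (τ a) (τ (τ a)) * swap (τ a) a ∈ H := by
    have := H.mul_mem h3 (hH.conj_mem _ (H.inv_mem h3) (swap a (τ a)))
    rw [swap_comm (τ a) a, swap_apply_apply]
    simpa [mul_assoc] using this
  have h5 : (swap (τ a) (τ (τ a)) * swap (τ a) a).IsThreeCycle :=
    Perm.isThreeCycle_swap_mul_swap_same (fun e => h1 (τ.injective e).symm) h1 h2
  have h6 : alternatingGroup I ≤ H := by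
    rw [← Perm.closure_three_cycles_eq_alternating, closure_le]
    intro c hc
    obtain ⟨g, hg⟩ := isConj_iff.1 (Perm.isConj_iff_cycleType_eq.2 (h5.cycleType.trans hc.cycleType.symm))
    exact hg ▸ hH.conj_mem _ h4 g
  exact h6 hσ

theorem dg_mem_Pst (hI : 3 ≤ Fintype.card I)
    (h : ∀ σ : Perm I, Perm.sign σ = 1 → tp p J σ ∈ Pst I p J) {u : I → (ZMod p)ˣ}
    (hu : ∏ i, u i = 1) : dg J u ∈ Pst I p J := by
  obtain ⟨i⟩ : Nonempty I := Fintype.card_pos_iff.1 (by omega)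
  let φ : (I → (ZMod p)ˣ) →* (I → (ZMod p)ˣ) := MonoidHom.id _ *
    ((MonoidHom.mulSingle (fun _ => (ZMod p)ˣ) i).comp
      (∏ l, Pi.evalMonoidHom (fun _ => (ZMod p)ˣ) l))⁻¹
  have hφ : ∀ c, φ c = c * (Pi.mulSingle i (∏ l, c l))⁻¹ := fun c => by simp [φ]
  have h1 := Subgroup.pi_mem_of_mulSingle_mem (H := ((Pst I p J).comap (dgH I p J)).comap φ) u
    fun j => by
      show dg J (φ _) ∈ Pst I p J
      rw [hφ, Finset.prod_pi_mulSingle', if_pos (Finset.mem_univ _)]
      obtain ⟨σ, h2, h3⟩ : ∃ σ : Perm I, Perm.sign σ = 1 ∧ σ j = i := by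
        by_cases e : j = i
        · exact ⟨1, by simp, e⟩
        obtain ⟨k, hk⟩ : ∃ k, k ∉ ({j, i} : Finset I) := by
          by_contra hc
          push Not at hc
          have := Finset.card_le_card (fun k _ => hc k : Finset.univ ⊆ ({j, i} : Finset I))
          rw [Finset.card_pair e, Finset.card_univ] at this
          omega
        simp only [Finset.mem_insert, Finset.mem_singleton, not_or] at hk
        refine ⟨swap j i * swap i k, by simp [e, Ne.symm hk.2], ?_⟩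
        simp [swap_apply_of_ne_of_ne e (Ne.symm hk.1)]
      have h4 := mul_mem (Pst_conj (dg_mem_norm (Pi.mulSingle j (u j))) (h σ h2)) (inv_mem (h σ h2))
      rw [mul_assoc (dg J _), ← dg_inv, tp_dg, ← mul_assoc, mul_inv_cancel_right, ← dg_mul] at h4
      convert h4 using 3
      funext l
      by_cases e : l = i
      · simp [e, ← h3]
      · have : σ.symm l ≠ j := fun e' => e (by rw [← h3, ← e']; simp)
        simp [e, this]
  have h2 : dg J (φ u) ∈ Pst I p J := h1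
  simpa [hφ, hu] using h2

variable {N : Subgroup (Perm (Om I p J)) → Subgroup (Perm (Om I p J))}

theorem le_alt_of_isPGroup (h2 : p ≠ 2) {α : Type*} [Fintype α] [DecidableEq α]
    {P : Subgroup (Perm α)} (h : IsPGroup p P) : P ≤ alternatingGroup α := fun x hx => by
  obtain ⟨k, hk⟩ := h ⟨x, hx⟩
  exact sign_of_pow h2 (congrArg Subtype.val hk)

theorem Pst_le (h2 : p ≠ 2) (hN : Fam p (alternatingGroup _) N) : Pst I p J ≤ N (A I p J) :=
  (closure_le _).2 fun x hx => hN.pel _ (le_alt_of_isPGroup h2 isPGroup_A) isPGroup_A x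
    (sign_of_pow h2 (k := 1) (by simpa using hx.2)) hx.1 1 (by simpa using hx.2)

theorem mem_NA [Subsingleton J] (h2 : p ≠ 2) (hI : 3 ≤ Fintype.card I)
    (hN : Fam p (alternatingGroup _) N) (h : ∀ σ : Perm I, Perm.sign σ = 1 → tp p J σ ∈ Pst I p J)
    (ht : ∀ a : (ZMod p)ˣ, ∃ σ u, ∏ i, u i = a ∧ tp p J σ * dg J u ∈ N (A I p J))
    {g : Perm (Om I p J)} (hg : g ∈ alternatingGroup _)
    (hgA : g ∈ normalizer (A I p J : Set (Perm (Om I p J)))) : g ∈ N (A I p J) := by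
  obtain ⟨b, σ, u, rfl⟩ := norm_A' hgA
  obtain ⟨τ, v, h3, h4⟩ := ht (∏ i, u i)
  have h5 := Pst_le h2 hN (mul_mem (tr_mem_Pst b) (Pst_conj (tp_mem_norm σ)
    (dg_mem_Pst hI h (u := u * v⁻¹) (by simp [Finset.prod_mul_distrib, h3]))))
  have e : tr J b * tp p J σ * dg J u = tr J b * (tp p J σ * dg J (u * v⁻¹) * (tp p J σ)⁻¹) *
      tp p J (σ * τ⁻¹) * (tp p J τ * dg J v) := by
    rw [dg_mul, dg_inv, tp_mul, tp_inv]; group
  have h6 : Perm.sign (σ * τ⁻¹) = 1 := by
    have h7 := Perm.mem_alternatingGroup.1 hg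
    rw [e, map_mul, map_mul, Perm.mem_alternatingGroup.1 (hN.leH _ h5),
      Perm.mem_alternatingGroup.1 (hN.leH _ h4), one_mul, mul_one, sign_tp] at h7
    rcases Int.units_eq_one_or (Perm.sign (σ * τ⁻¹)) with e' | e'
    · exact e'
    · rw [e', (hp.out.odd_of_ne_two h2).neg_one_pow] at h7
      exact absurd h7 (by decide)
  rw [e]
  exact mul_mem (mul_mem h5 (Pst_le h2 hN (h _ h6))) h4

end Star

section Plane

variable {K J : Type*} {p : ℕ} [hp : Fact p.Prime]

/-- Permutations of the first `p²` points. -/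
def emb (K J : Type*) (φ : Perm (ZMod p × ZMod p)) : Perm (Om (ZMod p ⊕ K) p J) where
  toFun
    | Sum.inl (Sum.inl i, y) => Sum.inl (Sum.inl (φ (i, y)).1, (φ (i, y)).2)
    | w => w
  invFun
    | Sum.inl (Sum.inl i, y) => Sum.inl (Sum.inl (φ⁻¹ (i, y)).1, (φ⁻¹ (i, y)).2)
    | w => w
  left_inv := by rintro (⟨i | k, y⟩ | j) <;> simp
  right_inv := by rintro (⟨i | k, y⟩ | j) <;> simp

@[simp] theorem emb_l (φ : Perm (ZMod p × ZMod p)) (i y : ZMod p) :
    emb K J φ (Sum.inl (Sum.inl i, y)) = Sum.inl (Sum.inl (φ (i, y)).1, (φ (i, y)).2) := rfl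
@[simp] theorem emb_r (φ : Perm (ZMod p × ZMod p)) (k : K) (y : ZMod p) :
    emb K J φ (Sum.inl (Sum.inr k, y)) = Sum.inl (Sum.inr k, y) := rfl
@[simp] theorem emb_j (φ : Perm (ZMod p × ZMod p)) (j : J) :
    emb K J φ (Sum.inr j) = Sum.inr j := rfl

theorem om_ext3 {x y : Perm (Om (ZMod p ⊕ K) p J)}
    (h1 : ∀ i c, x (Sum.inl (Sum.inl i, c)) = y (Sum.inl (Sum.inl i, c)))
    (h2 : ∀ k c, x (Sum.inl (Sum.inr k, c)) = y (Sum.inl (Sum.inr k, c)))
    (h3 : ∀ j, x (Sum.inr j) = y (Sum.inr j)) : x = y :=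
  om_ext (fun i c => by rcases i with i | k; exacts [h1 i c, h2 k c]) h3

/-- Upper transvections. -/
def xa (K J : Type*) (c : ZMod p) : Perm (Om (ZMod p ⊕ K) p J) :=
  emb K J ⟨fun v => (v.1 + c * v.2, v.2), fun v => (v.1 - c * v.2, v.2), fun v => by simp,
    fun v => by simp⟩

/-- Lower transvections. -/
def xb (K J : Type*) (c : ZMod p) : Perm (Om (ZMod p ⊕ K) p J) :=
  emb K J ⟨fun v => (v.1, v.2 + c * v.1), fun v => (v.1, v.2 - c * v.1), fun v => by simp,
    fun v => by simp⟩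

theorem xa_l (c i y : ZMod p) :
    xa K J c (Sum.inl (Sum.inl i, y)) = Sum.inl (Sum.inl (i + c * y), y) := rfl
theorem xb_l (c i y : ZMod p) :
    xb K J c (Sum.inl (Sum.inl i, y)) = Sum.inl (Sum.inl i, y + c * i) := rfl

/-- Translations of the plane and of the other blocks. -/
def rr (J : Type*) (v : (ZMod p × ZMod p) × (K → ZMod p)) : Perm (Om (ZMod p ⊕ K) p J) :=
  tr J (Sum.elim (fun _ => v.1.2) v.2) * tp p J (Equiv.sumCongr (Equiv.addRight v.1.1) (Equiv.refl K))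

@[simp] theorem rr_l (v : (ZMod p × ZMod p) × (K → ZMod p)) (i y : ZMod p) :
    rr J v (Sum.inl (Sum.inl i, y)) = Sum.inl (Sum.inl (i + v.1.1), y + v.1.2) := rfl
@[simp] theorem rr_r (v : (ZMod p × ZMod p) × (K → ZMod p)) (k : K) (y : ZMod p) :
    rr J v (Sum.inl (Sum.inr k, y)) = Sum.inl (Sum.inr k, y + v.2 k) := rfl
@[simp] theorem rr_j (v : (ZMod p × ZMod p) × (K → ZMod p)) (j : J) :
    rr J v (Sum.inr j) = Sum.inr j := rfl

/-- The translations as a homomorphism. -/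
def rrH (K : Type*) (p : ℕ) [Fact p.Prime] (J : Type*) :
    Multiplicative ((ZMod p × ZMod p) × (K → ZMod p)) →* Perm (Om (ZMod p ⊕ K) p J) :=
  MonoidHom.mk' (fun v => rr J v.toAdd) fun a b =>
    om_ext3 (fun i c => by simp [add_comm, add_left_comm])
      (fun i c => by simp [add_comm, add_left_comm]) fun _ => rfl

/-- The group of these translations. -/
def R (K : Type*) (p : ℕ) [Fact p.Prime] (J : Type*) : Subgroup (Perm (Om (ZMod p ⊕ K) p J)) :=
  (rrH K p J).range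

theorem rr_mem (v : (ZMod p × ZMod p) × (K → ZMod p)) : rr J v ∈ R K p J :=
  ⟨Multiplicative.ofAdd v, rfl⟩

theorem isPGroup_R : IsPGroup p (R K p J) := by
  rintro ⟨_, v, rfl⟩
  refine ⟨1, Subtype.ext ?_⟩
  have : v ^ p = 1 := by
    show Multiplicative.ofAdd (p • v.toAdd) = Multiplicative.ofAdd 0
    congr 1
    ext <;> simp
  simp [← map_pow, this]

theorem R_le_norm : R K p J ≤ normalizer (A (ZMod p ⊕ K) p J : Set (Perm (Om (ZMod p ⊕ K) p J))) := by
  rintro _ ⟨v, rfl⟩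
  exact mul_mem (tr_mem_norm _) (tp_mem_norm _)

theorem cent_R [DecidableEq K] [Subsingleton J] :
    centralizer (R K p J : Set (Perm (Om (ZMod p ⊕ K) p J))) ≤ R K p J := fun x hx => by
  have h : ∀ v w, rr J v (x w) = x (rr J v w) := fun v w =>
    DFunLike.congr_fun (mem_centralizer_iff.1 hx _ (rr_mem v)) w
  have h0 : ∀ v w, rr J v (x w) = x w → rr J v w = w := fun v w e =>
    x.injective ((h v w).symm.trans e)
  obtain ⟨i, c, h1⟩ : ∃ i c, x (Sum.inl (Sum.inl 0, 0)) = Sum.inl (Sum.inl i, c) := by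
    rcases e : x (Sum.inl (Sum.inl 0, 0)) with ⟨i | k, c⟩ | j
    · exact ⟨i, c, rfl⟩
    · simpa using h0 ((0, 1), 0) (Sum.inl (Sum.inl 0, 0)) (by rw [e]; simp)
    · simpa using h0 ((0, 1), 0) (Sum.inl (Sum.inl 0, 0)) (by rw [e]; simp)
  have h2 : ∀ k, ∃ c, x (Sum.inl (Sum.inr k, 0)) = Sum.inl (Sum.inr k, c) := fun k => by
    rcases e : x (Sum.inl (Sum.inr k, 0)) with ⟨i | l, c⟩ | j
    · simpa using h0 (0, Pi.single k 1) (Sum.inl (Sum.inr k, 0)) (by rw [e]; simp)
    · by_cases e' : l = k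
      · exact ⟨c, by rw [e']⟩
      · exfalso
        simpa using h0 (0, Pi.single k 1) (Sum.inl (Sum.inr k, 0)) (by rw [e]; simp [e'])
    · simpa using h0 (0, Pi.single k 1) (Sum.inl (Sum.inr k, 0)) (by rw [e]; simp)
  choose b hb using h2
  have h3 : x = rr J ((i, c), b) := by
    refine om_ext3 (fun i' c' => ?_) (fun k c' => ?_) fun j => ?_
    · have := h ((i', c'), 0) (Sum.inl (Sum.inl 0, 0))
      rw [h1] at this
      simpa [add_comm] using this.symm
    · have := h (0, fun _ => c') (Sum.inl (Sum.inr k, 0))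
      rw [hb] at this
      simpa [add_comm] using this.symm
    · have h4 := h ((0, 1), fun _ => 1) (Sum.inr j)
      rcases e : x (Sum.inr j) with ⟨i | l, c⟩ | j'
      · simp [e] at h4
      · simp [e] at h4
      · simp [Subsingleton.elim j' j]
  rw [h3]; exact rr_mem _

variable [Fintype K] [Fintype J] [DecidableEq K] [DecidableEq J]
  {N : Subgroup (Perm (Om (ZMod p ⊕ K) p J)) → Subgroup (Perm (Om (ZMod p ⊕ K) p J))}

theorem mem_NR (h2 : p ≠ 2) (hN : Fam p (alternatingGroup _) N) {x : Perm (Om (ZMod p ⊕ K) p J)}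
    (h1 : ∀ v, ∃ w, x * rr J v = rr J w * x) (hx : x ^ p = 1) : x ∈ N (R K p J) := by
  refine hN.pel _ (le_alt_of_isPGroup h2 isPGroup_R) isPGroup_R x
    (sign_of_pow h2 (k := 1) (by simpa using hx)) (mem_normalizer_fintype ?_) 1 (by simpa using hx)
  rintro _ ⟨v, rfl⟩
  obtain ⟨w, hw⟩ := h1 v.toAdd
  exact (mul_inv_eq_iff_eq_mul.2 hw).symm ▸ rr_mem w

theorem xa_mem (h2 : p ≠ 2) (hN : Fam p (alternatingGroup _) N) (c : ZMod p) :
    xa K J c ∈ N (R K p J) := by
  refine mem_NR h2 hN (fun v => ⟨((v.1.1 + c * v.1.2, v.1.2), v.2),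
    om_ext3 (fun i y => by simp [xa]; ring) (fun _ _ => rfl) fun _ => rfl⟩) ?_
  have h : ∀ n : ℕ, xa K J c ^ n = xa K J ((n : ZMod p) * c) := fun n => by
    induction n with
    | zero => exact om_ext3 (fun i y => by simp [xa]) (fun _ _ => rfl) fun _ => rfl
    | succ n ih =>
      rw [pow_succ, ih]
      exact om_ext3 (fun i y => by simp [xa]; ring) (fun _ _ => rfl) fun _ => rfl
  rw [h]
  exact om_ext3 (fun i y => by simp [xa]) (fun _ _ => rfl) fun _ => rfl

theorem xb_mem (h2 : p ≠ 2) (hN : Fam p (alternatingGroup _) N) (c : ZMod p) :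
    xb K J c ∈ N (R K p J) := by
  refine mem_NR h2 hN (fun v => ⟨((v.1.1, v.1.2 + c * v.1.1), v.2),
    om_ext3 (fun i y => by simp [xb]; ring) (fun _ _ => rfl) fun _ => rfl⟩) ?_
  have h : ∀ n : ℕ, xb K J c ^ n = xb K J ((n : ZMod p) * c) := fun n => by
    induction n with
    | zero => exact om_ext3 (fun i y => by simp [xb]) (fun _ _ => rfl) fun _ => rfl
    | succ n ih =>
      rw [pow_succ, ih]
      exact om_ext3 (fun i y => by simp [xb]; ring) (fun _ _ => rfl) fun _ => rfl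
  rw [h]
  exact om_ext3 (fun i y => by simp [xb]) (fun _ _ => rfl) fun _ => rfl

theorem exists_torus [Subsingleton J] (h2 : p ≠ 2) (hN : Fam p (alternatingGroup _) N)
    (a : (ZMod p)ˣ) : ∃ σ u, ∏ i, u i = a ∧ tp p J σ * dg J u ∈ N (A (ZMod p ⊕ K) p J) := by
  refine ⟨Equiv.sumCongr (a⁻¹).mulRight (Equiv.refl K), Sum.elim (fun _ => a) 1, ?_, ?_⟩
  · rw [Fintype.prod_sum_type]
    simp [Units.ext_iff]
  let t := tp p J (Equiv.sumCongr (a⁻¹).mulRight (Equiv.refl K)) * dg J (Sum.elim (fun _ => a) 1)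
  have e : t = xa K J (a⁻¹ : (ZMod p)ˣ) * xb K J (-a) * xa K J (a⁻¹ : (ZMod p)ˣ) * xa K J (-1) *
      xb K J 1 * xa K J (-1) := by
    refine om_ext3 (fun i y => ?_) (fun k y => congrArg (fun z => Sum.inl (Sum.inr k, z)) (mul_one y))
      fun _ => rfl
    have := a.ne_zero
    simp only [Perm.mul_apply, xa_l, xb_l]
    show Sum.inl (Sum.inl (i * (a⁻¹ : (ZMod p)ˣ)), y * a) = _
    simp only [Sum.inl.injEq, Prod.mk.injEq, Units.val_inv_eq_inv_val, Units.val_neg]
    constructor <;> field_simp <;> ring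
  have h3 : t ∈ N (R K p J) := e ▸ mul_mem (mul_mem (mul_mem (mul_mem (mul_mem (xa_mem h2 hN _)
    (xb_mem h2 hN _)) (xa_mem h2 hN _)) (xa_mem h2 hN _)) (xb_mem h2 hN _)) (xa_mem h2 hN _)
  have h4 : t ∈ normalizer (A (ZMod p ⊕ K) p J : Set (Perm (Om (ZMod p ⊕ K) p J))) :=
    mul_mem (tp_mem_norm _) (dg_mem_norm _)
  have h5 : IsPGroup p (R K p J ⊔ A (ZMod p ⊕ K) p J : Subgroup _) :=
    isPGroup_R.to_sup_of_normal_right' isPGroup_A R_le_norm
  refine hN.res _ _ (le_alt_of_isPGroup h2 h5) h5 le_sup_right t (hN.ext _ _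
    (le_alt_of_isPGroup h2 h5) h5 le_sup_left (inf_le_right.trans cent_R) t h3 ?_) h4
  exact Subgroup.normalizer_inf_normalizer_le_normalizer_sup _ _ ⟨hN.le _ h3, h4⟩

theorem aut_odd [Subsingleton J] (h2 : p ≠ 2) (hN : Fam p (alternatingGroup _) N)
    {B : Subgroup (Perm (ZMod p ⊕ K))} (hB : IsPGroup p (T p J B))
    {g : Perm (Om (ZMod p ⊕ K) p J)} (hg : g ∈ alternatingGroup _)
    (hgT : g ∈ normalizer (T p J B : Set (Perm (Om (ZMod p ⊕ K) p J)))) : g ∈ N (T p J B) := by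
  have h3 : 3 ≤ p := by have := hp.out.two_le; omega
  refine hN.ext _ _ (le_alt_of_isPGroup h2 hB) hB A_le_T (inf_le_right.trans cent_A) g
    (mem_NA h2 (by simp; omega) hN (fun σ hσ => ?_) (exists_torus h2 hN) hg (norm_T_le hgT)) hgT
  refine tp_mem_Pst_of_ne (τ := Equiv.sumCongr (Equiv.addRight 1) (Equiv.refl K))
    (a := Sum.inl 0) ?_ (by simp) ?_ hσ
  · have h : ∀ n : ℕ, (Equiv.sumCongr (Equiv.addRight (1 : ZMod p)) (Equiv.refl K) :
        Perm (ZMod p ⊕ K)) ^ n = Equiv.sumCongr (Equiv.addRight (n : ZMod p)) (Equiv.refl K) := by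
      intro n
      induction n with
      | zero => ext (i | k) <;> simp
      | succ n ih => rw [pow_succ', ih]; ext (i | k) <;> simp
    rw [h]; ext (i | k) <;> simp
  · intro e
    have : ((2 : ℕ) : ZMod p) = 0 := by
      simp only [Equiv.sumCongr_apply, Sum.map_inl, Equiv.coe_addRight, Sum.inl.injEq] at e
      rw [← e]; norm_num
    exact h2 ((Nat.prime_dvd_prime_iff_eq hp.out Nat.prime_two).1 ((ZMod.natCast_eq_zero_iff _ _).1 this))

end Plane

end Cfsg.Lib.DC.Wr
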