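import Cfsg.Agent.DC.SymWr
import Cfsg.Agent.Perm.SymSylow2

/-!
# No proper strongly closed subgroups in a non-abelian Sylow subgroup of an alternating group
-/

set_option autoImplicit false
set_option linter.unusedSectionVars false

namespace Cfsg.Lib.DC.Wr

open Equiv Subgroup

variable {I J : Type*} {p : ℕ} [hp : Fact p.Prime] [Fintype I] [Fintype J] [DecidableEq I]
  [DecidableEq J] {B : Subgroup (Perm I)}

theorem cycleType_eq_of_pow {α : Type*} [Fintype α] [DecidableEq α] {x : Perm α} (hx : x ^ p = 1) :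
    ∃ k, x.cycleType = Multiset.replicate k p ∧ x.support.card = k * p := by
  have h := Multiset.eq_replicate.2 ⟨rfl, Perm.pow_prime_eq_one_iff.1 hx⟩
  exact ⟨_, h, by rw [← Perm.sum_cycleType, h, Multiset.sum_replicate, smul_eq_mul]; simp⟩

theorem isConj_of_supp {α : Type*} [Fintype α] [DecidableEq α] {x y : Perm α} (hx : x ^ p = 1)
    (hy : y ^ p = 1) (h : x.support.card = y.support.card) : IsConj x y := by
  obtain ⟨k, h1, h2⟩ := cycleType_eq_of_pow hx
  obtain ⟨l, h3, h4⟩ := cycleType_eq_of_pow hy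
  have : k = l := Nat.eq_of_mul_eq_mul_right hp.out.pos (by omega)
  rw [Perm.isConj_iff_cycleType_eq, h1, h3, this]

theorem exists_weight (hJ : Fintype.card J < p) {x : Perm (Om I p J)} (hx : x ^ p = 1) :
    ∃ k, k ≤ Fintype.card I ∧ x.support.card = k * p := by
  obtain ⟨k, -, h⟩ := cycleType_eq_of_pow hx
  refine ⟨k, ?_, h⟩
  have h1 := Finset.card_le_univ x.support
  rw [card_Om, h] at h1
  by_contra hc
  have : (Fintype.card I + 1) * p ≤ k * p := Nat.mul_le_mul_right _ (by omega)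
  rw [add_mul] at this
  omega

/-- Indicator vector. -/
def ind (p : ℕ) (K : Finset I) : I → ZMod p := fun i => if i ∈ K then 1 else 0

theorem card_supp_ind (K : Finset I) : (tr J (ind p K)).support.card = K.card * p :=
  card_supp_tr _ K fun i => by by_cases h : i ∈ K <;> simp [ind, h]

theorem sign_tp (σ : Perm I) : Perm.sign (tp p J σ) = Perm.sign σ ^ p := by
  change Perm.sign (Equiv.sumCongr (Equiv.prodCongrLeft fun _ => σ) (Equiv.refl _)) = _
  rw [Perm.sign_sumCongr, Perm.sign_prodCongrLeft]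
  simp

theorem sign_tr_single (h2 : p = 2) (i : I) : Perm.sign (tr J (Pi.single i (1 : ZMod p))) = -1 := by
  refine (Perm.card_support_eq_two.1 ?_).sign_eq
  rw [card_supp_tr _ {i} fun k => by by_cases hk : k = i <;> simp [hk], h2]
  rfl

theorem sign_of_pow {α : Type*} [Fintype α] [DecidableEq α] (h2 : p ≠ 2) {x : Perm α} {k : ℕ}
    (hx : x ^ p ^ k = 1) : Perm.sign x = 1 := by
  have h := congrArg Perm.sign hx
  rw [map_pow, map_one] at h
  rcases Int.units_eq_one_or (Perm.sign x) with e | e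
  · exact e
  · rw [e, ((hp.out.odd_of_ne_two h2).pow).neg_one_pow] at h
    exact absurd h (by decide)

theorem exists_odd_comm (hI : 3 ≤ Fintype.card I) (hJ : Fintype.card J < p) {x : Perm (Om I p J)}
    (hx : x ^ p = 1) : ∃ c, Perm.sign c = -1 ∧ c * x = x * c := by
  obtain ⟨k, hk, h⟩ := exists_weight hJ hx
  obtain ⟨K, -, hK⟩ := Finset.exists_subset_card_eq (s := (Finset.univ : Finset I)) hk
  obtain ⟨g, hg⟩ := isConj_iff.1 (isConj_of_supp (tr_pow_p (ind p K)) hx
    (by rw [card_supp_ind, hK, h]))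
  suffices ∃ c, Perm.sign c = -1 ∧ c * tr J (ind p K) = tr J (ind p K) * c by
    obtain ⟨c, h1, h2⟩ := this
    refine ⟨g * c * g⁻¹, by simp [h1, mul_comm], ?_⟩
    rw [← hg]
    calc g * c * g⁻¹ * (g * tr J (ind p K) * g⁻¹) = g * (c * tr J (ind p K)) * g⁻¹ := by group
      _ = _ := by rw [h2]; group
  by_cases h2 : p = 2
  · obtain ⟨i⟩ : Nonempty I := Fintype.card_pos_iff.1 (by omega)
    exact ⟨_, sign_tr_single h2 i, by rw [← tr_add, ← tr_add, add_comm]⟩
  · obtain ⟨i, j, hij, e⟩ : ∃ i j : I, i ≠ j ∧ (i ∈ K ↔ j ∈ K) := by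
      obtain ⟨i, j, hij, e⟩ := Fintype.exists_ne_map_eq_of_card_lt (fun i : I => decide (i ∈ K))
        (by simp; omega)
      exact ⟨i, j, hij, by simpa using e⟩
    refine ⟨tp p J (swap i j), by rw [sign_tp, Perm.sign_swap hij,
      (hp.out.odd_of_ne_two h2).neg_one_pow], ?_⟩
    rw [tp_tr]
    congr 2
    funext k
    rw [swap_inv]
    by_cases h1 : k = i
    · simp [ind, h1, e]
    by_cases h3 : k = j
    · simp [ind, h3, e]
    · rw [swap_apply_of_ne_of_ne h1 h3]

/-- `U` is strongly closed in the even part of `T`. -/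
structure SC (p : ℕ) [Fact p.Prime] (J : Type*) [Fintype J] [DecidableEq J] (B : Subgroup (Perm I))
    (U : Subgroup (Perm (Om I p J))) : Prop where
  hI : 3 ≤ Fintype.card I
  hJ : Fintype.card J < p
  le : U ≤ T p J B ⊓ alternatingGroup _
  cl : ∀ x ∈ U, ∀ g ∈ alternatingGroup (Om I p J), g * x * g⁻¹ ∈ T p J B ⊓ alternatingGroup _ →
    g * x * g⁻¹ ∈ U

variable {U : Subgroup (Perm (Om I p J))}

theorem SC.fuse (h : SC p J B U) {x y : Perm (Om I p J)} (hx : x ∈ U) (hxp : x ^ p = 1)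
    (hy : y ∈ T p J B) (hyp : y ^ p = 1) (e : x.support.card = y.support.card) : y ∈ U := by
  obtain ⟨g, hg⟩ := isConj_iff.1 (isConj_of_supp hxp hyp e)
  have hya : y ∈ alternatingGroup _ := hg ▸ Subgroup.Normal.conj_mem inferInstance _ (h.le hx).2 g
  rcases Int.units_eq_one_or (Perm.sign g) with h1 | h1
  · exact hg ▸ h.cl x hx g h1 (hg.symm ▸ ⟨hy, hya⟩)
  · obtain ⟨c, h2, h3⟩ := exists_odd_comm h.hI h.hJ hxp
    have h4 : g * c * x * (g * c)⁻¹ = y := by
      rw [← hg, mul_assoc g, h3]; group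
    exact h4 ▸ h.cl x hx (g * c) (by simp [h1, h2]) (h4.symm ▸ ⟨hy, hya⟩)

theorem SC.exists_ind (h : SC p J B U) (hB : IsPGroup p (T p J B)) (hU : U ≠ ⊥) :
    ∃ k, 1 ≤ k ∧ k ≤ Fintype.card I ∧ ∀ y ∈ T p J B, y ^ p = 1 → y.support.card = k * p → y ∈ U := by
  have h1 : IsPGroup p U := hB.to_le (h.le.trans inf_le_left)
  have := (Subgroup.nontrivial_iff_ne_bot U).2 hU
  obtain ⟨n, hn, e⟩ := h1.nontrivial_iff_card.1 this
  obtain ⟨x, hx⟩ := exists_prime_orderOf_dvd_card' (G := U) p (e ▸ dvd_pow_self p hn.ne')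
  have h2 : (x : Perm (Om I p J)) ^ p = 1 :=
    orderOf_dvd_iff_pow_eq_one.1 (by rw [Subgroup.orderOf_coe, hx])
  obtain ⟨k, hk, e'⟩ := exists_weight h.hJ h2
  refine ⟨k, Nat.pos_of_ne_zero ?_, hk, fun y hy hyp e'' => h.fuse x.2 h2 hy hyp (e'.trans e''.symm)⟩
  rintro rfl
  rw [zero_mul, Perm.card_support_eq_zero] at e'
  rw [show x = 1 from Subtype.ext e', orderOf_one] at hx
  exact hp.out.one_lt.ne hx

theorem tr_mem_of_single {V : Subgroup (Perm (Om I p J))} (φ : (I → ZMod p) →+ (I → ZMod p))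
    (h : ∀ i c, tr J (φ (Pi.single i c)) ∈ V) (b : I → ZMod p) : tr J (φ b) ∈ V :=
  AddSubgroup.pi_mem_of_single_mem (H := ((V.comap (trH I p J)).toAddSubgroup').comap φ) b
    fun i => h i (b i)

theorem SC.base_odd (h : SC p J B U) (hB : IsPGroup p (T p J B)) (hU : U ≠ ⊥) (h2 : p ≠ 2)
    (b : I → ZMod p) : tr J b ∈ U := by
  obtain ⟨k, hk1, hk, H⟩ := h.exists_ind hB hU
  obtain ⟨K, -, hK⟩ := Finset.exists_subset_card_eq (s := (Finset.univ : Finset I)) hk
  obtain ⟨i, hi⟩ := Finset.card_pos.1 (show 0 < K.card by omega)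
  have h3 : (1 : ZMod p) + 1 ≠ 0 := fun e => by
    have : ((2 : ℕ) : ZMod p) = 0 := by rw [← e]; norm_num
    exact h2 ((Nat.prime_dvd_prime_iff_eq hp.out Nat.prime_two).1 ((ZMod.natCast_eq_zero_iff _ _).1 this))
  have h4 := H _ (tr_mem_T (ind p K)) (tr_pow_p _) (by rw [card_supp_ind, hK])
  have h5 := H _ (tr_mem_T (Pi.single i 1 + ind p K)) (tr_pow_p _) (by
    rw [card_supp_tr _ K fun j => ?_, hK]
    by_cases e : j = i
    · simp [e, ind, hi, h3]
    · by_cases e' : j ∈ K <;> simp [e, ind, e'])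
  have h6 : tr J (Pi.single i (1 : ZMod p)) ∈ U := by
    have := U.mul_mem h5 (U.inv_mem h4)
    rwa [tr_add, mul_inv_cancel_right] at this
  refine tr_mem_of_single (AddMonoidHom.id _) (fun j c => ?_) b
  by_cases hc : c = 0
  · simp [hc]
  refine h.fuse h6 (tr_pow_p _) (tr_mem_T _) (tr_pow_p _) ?_
  rw [card_supp_tr _ {i} fun k => by by_cases hk : k = i <;> simp [hk],
    card_supp_tr _ {j} fun k => by by_cases hk : k = j <;> simp [hk, hc]]
  simp

theorem zmod2_add (y : ZMod 2) : y + 1 + 1 = y := by revert y; decide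

theorem zmod2_cases (c : ZMod 2) : c = 0 ∨ c = 1 := by revert c; decide

theorem SC.base_two (h : SC p J B U) (hB : IsPGroup p (T p J B)) (hU : U ≠ ⊥) (h2 : p = 2)
    (hs : ∃ t ∈ B, t.IsSwap) (b : I → ZMod p) (hb : Perm.sign (tr J b) = 1) : tr J b ∈ U := by
  subst h2
  obtain ⟨k, hk1, hk, H⟩ := h.exists_ind hB hU
  have h1 : ∃ x ∈ U, x ^ 2 = 1 ∧ x.support.card = 2 * 2 := by
    rcases hk.lt_or_eq with hk' | rfl
    · obtain ⟨K, -, hK⟩ := Finset.exists_subset_card_eq (s := (Finset.univ : Finset I))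
        (n := k + 1) hk'
      obtain ⟨i, hi, j, hj, hij⟩ := Finset.one_lt_card.1 (show 1 < K.card by omega)
      have h3 := H _ (tr_mem_T (ind 2 (K.erase i))) (tr_pow_p _)
        (by rw [card_supp_ind, Finset.card_erase_of_mem hi, hK]; rfl)
      have h4 := H _ (tr_mem_T (ind 2 (K.erase j))) (tr_pow_p _)
        (by rw [card_supp_ind, Finset.card_erase_of_mem hj, hK]; rfl)
      refine ⟨_, U.mul_mem h3 h4, by rw [← tr_add, tr_pow_p], ?_⟩
      rw [← tr_add, card_supp_tr _ {i, j} fun l => ?_, Finset.card_pair hij]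
      have h0 : (1 : ZMod 2) + 1 = 0 := rfl
      by_cases e1 : l = i
      · simp [ind, e1, hij, hi]
      by_cases e2 : l = j
      · simp [ind, e2, hij.symm, hj]
      · by_cases e3 : l ∈ K <;> simp [ind, e1, e2, e3, h0]
    · obtain ⟨_, ht, i, j, hij, rfl⟩ := hs
      have h0 : (1 : ZMod 2) + 1 = 0 := rfl
      have h5 := zmod2_add
      have h3 := H _ (tr_mem_T (ind 2 Finset.univ)) (tr_pow_p _) (by rw [card_supp_ind]; rfl)
      have h4 := H _ ((T 2 J B).mul_mem (tr_mem_T (ind 2 {i, j}ᶜ)) (tp_mem_T ht)) (by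
        refine om_ext (fun l c => ?_) fun _ => rfl
        by_cases e1 : l = i
        · simp [pow_two, ind, e1]
        by_cases e2 : l = j
        · simp [pow_two, ind, e2]
        · simp [pow_two, ind, e1, e2, swap_apply_of_ne_of_ne e1 e2, h5]) (by
        refine card_supp_of Finset.univ (fun l c => ?_) fun _ => rfl
        by_cases e1 : l = i
        · simp [e1, hij.symm]
        by_cases e2 : l = j
        · simp [e2, hij]
        · simp [ind, e1, e2, swap_apply_of_ne_of_ne e1 e2])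
      refine ⟨_, U.mul_mem h3 h4, ?_, ?_⟩
      · refine om_ext (fun l c => ?_) fun _ => rfl
        by_cases e1 : l = i
        · simp [pow_two, ind, e1, h5]
        by_cases e2 : l = j
        · simp [pow_two, ind, e2, h5]
        · simp [pow_two, ind, e1, e2, swap_apply_of_ne_of_ne e1 e2, h5]
      · rw [card_supp_of {i, j} (fun l c => ?_) fun _ => rfl, Finset.card_pair hij]
        by_cases e1 : l = i
        · simp [e1, hij.symm]
        by_cases e2 : l = j
        · simp [e2, hij]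
        · simp [ind, e1, e2, swap_apply_of_ne_of_ne e1 e2, h5]
  obtain ⟨x, hx, hx2, hx4⟩ := h1
  obtain ⟨i⟩ : Nonempty I := Fintype.card_pos_iff.1 (by omega)
  let φ : (I → ZMod 2) →+ (I → ZMod 2) := AddMonoidHom.id _ +
    (AddMonoidHom.single (fun _ => ZMod 2) i).comp (∑ l, Pi.evalAddMonoidHom (fun _ => ZMod 2) l)
  have hφ : ∀ c, φ c = c + Pi.single i (∑ l, c l) := fun c => by simp [φ]
  have hc := zmod2_cases
  have h3 := tr_mem_of_single (V := U) φ (fun j c => by
    rw [hφ, Finset.sum_pi_single', if_pos (Finset.mem_univ _)]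
    rcases hc c with rfl | rfl
    · simp
    by_cases e : j = i
    · rw [e, ← Pi.single_add, show (1 : ZMod 2) + 1 = 0 from rfl]; simp
    · refine h.fuse hx hx2 (tr_mem_T _) (tr_pow_p _) ?_
      rw [hx4, card_supp_tr _ {j, i} fun l => ?_, Finset.card_pair e]
      by_cases e1 : l = j
      · simp [e1, e]
      · by_cases e2 : l = i <;> simp [e1, e2, Ne.symm e]) b
  rw [hφ] at h3
  rcases hc (∑ l, b l) with e | e
  · simpa [e] using h3
  · have h4 := Perm.mem_alternatingGroup.1 (h.le h3).2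
    rw [e, tr_add, map_mul, hb, sign_tr_single rfl] at h4
    exact absurd h4 (by decide)

theorem sign_tp_of_mem (hB : IsPGroup p B) {σ : Perm I} (hσ : σ ∈ B) :
    Perm.sign (tp p J σ) = 1 := by
  by_cases h2 : p = 2
  · rw [sign_tp, h2, Int.units_sq]
  · obtain ⟨k, hk⟩ := hB ⟨σ, hσ⟩
    rw [sign_tp, sign_of_pow h2 (congrArg Subtype.val hk), one_pow]

theorem SC.top_le {Q : Sylow p (Perm I)} (h : SC p J (Q : Subgroup (Perm I)) U)
    (hB : IsPGroup p (T p J (Q : Subgroup (Perm I))))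
    (hU : U ≠ ⊥) : T p J (Q : Subgroup (Perm I)) ⊓ alternatingGroup _ ≤ U := by
  have h1 : ∀ b, Perm.sign (tr J b) = 1 → tr J b ∈ U := fun b hb => by
    by_cases h2 : p = 2
    · refine h.base_two hB hU h2 ?_ b hb
      subst h2
      exact Cfsg.Lib.Perm.SymSyl.exists_isSwap_mem (by have := h.hI; omega) Q
    · exact h.base_odd hB hU h2 b
  have h2 : (Q : Subgroup (Perm I)) ≤ U.comap (tpH I p J) := (og_sylow Q).le fun σ hσ e => by
    have h3 : tp p J σ ^ p = 1 := by rw [← tp_pow, e, tp_one]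
    have h4 : (tr J (ind p σ.support)).support.card = (tp p J σ).support.card := by
      rw [card_supp_ind, card_supp_tp]
    refine h.fuse (h1 _ ?_) (tr_pow_p _) (tp_mem_T hσ) h3 h4
    rw [isConj_iff_eq.1 (Perm.sign.map_isConj (isConj_of_supp (tr_pow_p _) h3 h4)),
      sign_tp_of_mem Q.isPGroup' hσ]
  rintro _ ⟨⟨b, σ, hσ, rfl⟩, hs⟩
  refine U.mul_mem (h1 b ?_) (h2 hσ)
  have h3 := Perm.mem_alternatingGroup.1 hs
  rwa [map_mul, sign_tp_of_mem Q.isPGroup' hσ, mul_one] at h3

end Cfsg.Lib.DC.Wr
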